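import Cfsg.Agent.Lib.AltModule.P5.M0.Def
import Cfsg.Agent.Lib.AltModule.P5.M1.Def

/-!
Checks for piece 2 of the certificate.
-/

namespace Cfsg.Agent.AltMod.P5.M0

def c2_0 : List (ℕ) := [0x200040000000000000000,
  0x40000000000000000,
  0x100000000000000000000,
  0x300020000000000000000,
  0x400000000000000000000,
  0x10000000000000000,
  0x100010000000000000000,
  0x300030000000000000000]

def c2_1 : List (ℕ) := [0x200000000000000030000,
  0x300000003000300010000,
  0x200000003000200030000,
  0x1000000010000,
  0x2000400010000,
  0x100000001000000010000,
  0x100000002000200000000,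
  0x100000004000400000000]

def c2_2 : List (ℕ) := [0x30000000000020000,
  0x10002000300030000,
  0x30003000300020000,
  0x10001000100000000,
  0x10000000100000000,
  0x10004000200010000,
  0x400010000,
  0x400010000]

def c2_3 : List (ℕ) := [0x20004000400010002000000020001000100010001,
  0x10000000000010001000300010000000000000000,
  0x40004000000040000000300040001000100010001,
  0x20002000000020000000100010003000300030003,
  0x20000000200000002000000010002000300000000,
  0x30003000300000000000300030000000400020002,
  0x20004000300000002000000010003000200010001,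
  0x20002000000030004000000000003000100030003]

def c2 : List (List ℕ) := [c2_0, c2_1, c2_2, c2_3]

theorem fac2_0 : mdl.factorOk 5 M1.mdl pc2 k2 0 c2_0 = true := by
  decide +kernel

theorem fac2_1 : mdl.factorOk 5 M1.mdl pc2 k2 1 c2_1 = true := by
  decide +kernel

theorem fac2_2 : mdl.factorOk 5 M1.mdl pc2 k2 2 c2_2 = true := by
  decide +kernel

theorem fac2_3 : mdl.factorOk 5 M1.mdl pc2 k2 3 c2_3 = true := by
  decide +kernel

end Cfsg.Agent.AltMod.P5.M0
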