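import Cfsg.Agent.Lib.AltModule.P5.M0.Def

/-!
Checks for piece 3 of the certificate.
-/

namespace Cfsg.Agent.AltMod.P5.M0

theorem fix3_1 : mdl.fixOk 5 ((subs.getD 0 ([], [])).1) v3 k3 0x4000100020003000300040001000000000000000000000000000000000001000000040000 = true := by
  decide +kernel

theorem fix3_2 : mdl.fixOk 5 ((subs.getD 0 ([], [])).2) v3 k3 0x400030002000400030001000400000000000000000000000000000004000000000000 = true := by
  decide +kernel

theorem spin3_len : e3.length = 0 := by decide +kernel

theorem spin3 : ∀ i < (e3.length + 49) / 50,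
    mdl.spinOk 5 v3 e3 (50 * i) (min 50 (e3.length - 50 * i)) = true := by
  rw [spin3_len]
  intro i hi
  omega

end Cfsg.Agent.AltMod.P5.M0
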