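import Cfsg.Agent.Lib.AltModule.P5.M0.Def
import Cfsg.Agent.Lib.AltModule.P5.M7.Def

/-!
Checks for piece 4 of the certificate.
-/

namespace Cfsg.Agent.AltMod.P5.M0

def c4_0 : List (ℕ) := [0x30003000000030002000100000000000000000000000200000000000000000000,
  0x20003000100010003000400040000000200000000000000010000000200010000000000000000,
  0x4000100030004000200010001000400000000000000010001000200000000000000000000,
  0x3000300040001000300040002000200000000000000000001000100020000000000000000,
  0x10000000400010001000400040003000300000000000000000004000100010000000000000000,
  0x3000100030002000300030002000200000000000000040000000200000000000000000000,
  0x30001000000030002000300030004000400000000000000040004000000000000000000000000,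
  0x10001000200000003000400010003000200000000000000010000000300020000000000000000,
  0x3000300040004000000010002000400000000000000000004000100000000000000000000,
  0x20004000100020003000100000001000000000000000000000000000300000000000000000000]

def c4_1 : List (ℕ) := [0x4000400020003000300030001000400040004000400040004000200010002000000010001,
  0x20003000000020003000400030003000200010000000000000000000300000000000000000000,
  0x40004000200040000000000040004000300010001000100010001000300040000000000040004,
  0x30000000100040001000400000000000300000001000100010001000300040002000000040004,
  0x40004000400010001000400040003000100000000000000000000000100000000000000000000,
  0x1000100020002000300000004000300040000000000000000000200000003000000000000,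
  0,
  0x30002000000040000000000000004000000010001000100010001000000040003000000040004,
  0x30001000300030001000300040004000000010000000000000000000400000001000000000000,
  0x1000300020001000400010001000300000004000400040004000300010001000000010001]

def c4_2 : List (ℕ) := [0x1000400000003000400020002000300010000000000000000000000000004000100010000,
  0x10002000000010000000200030004000400040000000400040004000100000002000000030001,
  0x2000300000003000300020000000000000001000000010000000000040002000000030000,
  0x30000000000010004000100040002000000010001000100020001000400040001000000030004,
  0x20001000200020002000100020002000100040000000000040000000000010000000000000000,
  0x4000000010002000100010001000200000000000100010001000400040001000400010004,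
  0x100000001000200040002000400040004000000040000000000010001000000010000,
  0x2000000040002000200030002000100000001000000000000000000010000000100000000,
  0x3000300000003000300040003000100040004000400030004000100020003000000010001,
  0x3000100020004000400020001000300000004000400040004000100010002000000030001]

def c4_3 : List (ℕ) := [0x40001000000040000000100000000000000010000000000000000,
  0x20000000000040004000400000001000000010000000000010001000300020002000000000000,
  0x4000300000000000200010002000300000000000000010000000400020004000000000000,
  0x40000000000040004000200020000000400000000000000000000000400040004000000000000,
  0x400000004000000000000,
  0x4000300010001000300020000000300000000000400000004000100020001000000000000,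
  0,
  0x20001000200030003000400000000000100000000000100000001000100010002000000000000,
  0x3000100020002000000010002000300000000000200040002000000010000000000000000,
  0x1000200040004000200040004000200010000000000000001000000040000000000000000]

def c4 : List (List ℕ) := [c4_0, c4_1, c4_2, c4_3]

theorem fac4_0 : mdl.factorOk 5 M7.mdl pc4 k4 0 c4_0 = true := by
  decide +kernel

theorem fac4_1 : mdl.factorOk 5 M7.mdl pc4 k4 1 c4_1 = true := by
  decide +kernel

theorem fac4_2 : mdl.factorOk 5 M7.mdl pc4 k4 2 c4_2 = true := by
  decide +kernel

theorem fac4_3 : mdl.factorOk 5 M7.mdl pc4 k4 3 c4_3 = true := by
  decide +kernel

end Cfsg.Agent.AltMod.P5.M0
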